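import Cfsg.Agent.CharDeep.Gallagher
import Cfsg.Agent.Deg.SpEven

/-! Isotypic parts of a character for an abelian subgroup (`av`), and the Weil characters of `SL` (`weil`). -/

set_option autoImplicit false

namespace Cfsg.Agent.GLChar

open Matrix Finset Cfsg.Agent.Char Cfsg.Agent.CharDeep

section
variable {G A : Type*} [Group G] [AddCommGroup A] [Fintype A] {u : AddChar A G} {l l' : AddChar A ℂ} {χ : G → ℂ}

/-- the trace of `g` times the projection on the `l⁻¹`-isotypic part for `u` -/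
noncomputable def av (u : AddChar A G) (l : AddChar A ℂ) (χ : G → ℂ) (g : G) : ℂ :=
  (Fintype.card A : ℂ)⁻¹ * ∑ a, l a * χ (g * u a)

theorem isChar_av [Finite G] (hχ : IsCharacter G χ) {T : Type*} [Group T] (f : T →* G)
    (h : ∀ t, ∃ σ : A ≃ A, ∀ a, f t * u a = u (σ a) * f t ∧ l (σ a) = l a) : IsCharacter T fun t => av u l χ (f t) := by
  obtain ⟨n, ρ, rfl⟩ := hχ
  let E : Module.End ℂ (Fin n → ℂ) := (Fintype.card A : ℂ)⁻¹ • ∑ a, l a • ρ (u a)
  have c : ∀ t, ρ (f t) * E = E * ρ (f t) := fun t => by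
    obtain ⟨σ, h⟩ := h t
    simp only [E, mul_smul_comm, smul_mul_assoc, mul_sum, sum_mul, ← map_mul, (h _).1]
    rw [← σ.sum_comp fun a => l a • ρ (u a * f t)]
    simp only [(h _).2]
  have e : E * E = E := by
    have : ∀ b, (l b • ρ (u b)) * ∑ a, l a • ρ (u a) = ∑ a, l a • ρ (u a) := fun b => by
      rw [mul_sum, ← Equiv.sum_comp (Equiv.addLeft b) fun a => l a • ρ (u a)]
      simp [AddChar.map_add_eq_mul, smul_smul, mul_comm]
    simp only [E, smul_mul_assoc, mul_smul_comm, sum_mul, this, sum_const, card_univ]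
    rw [← Nat.cast_smul_eq_nsmul ℂ, inv_smul_smul₀ (by simp)]
  let U : Subrepresentation (ρ.comp f) := ⟨LinearMap.range E, fun t _ ⟨v, h⟩ => ⟨ρ (f t) v, h ▸ (LinearMap.congr_fun (c t) v).symm⟩⟩
  convert isCharacter_character U.toRepresentation with t
  have : av u l ρ.character (f t) = LinearMap.trace ℂ _ (E * ρ (f t)) := by
    simp [← c, E, av, Representation.character, mul_sum]
  rw [this, ← LinearMap.trace_restrict_eq_of_forall_mem (LinearMap.range E) (E * ρ (f t)) fun x => ⟨_, rfl⟩]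
  congr 1
  ext1 ⟨_, v, rfl⟩
  exact Subtype.ext ((LinearMap.congr_fun (by rw [← c, mul_assoc, e] : E * ρ (f t) * E = ρ (f t) * E) v))

theorem av_mul (g : G) (b : A) : av u l χ (g * u b) = l (-b) * av u l χ g := by
  rw [av, av, mul_left_comm, mul_sum _ _ (l (-b)), ← Equiv.sum_comp (Equiv.addLeft b) fun a => l (-b) * _]
  simp [← mul_assoc, ← l.map_add_eq_mul, u.map_add_eq_mul]

theorem av_conj (hχ : IsClassFunction G χ) {x : G} (σ : A ≃ A) (h : ∀ a, x * u a = u (σ a) * x ∧ l' (σ a) = l a) (g : G) :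
    av u l' χ (x * g * x⁻¹) = av u l χ g := by
  rw [av, av, ← σ.sum_comp]
  refine congrArg _ (sum_congr rfl fun a _ => ?_)
  rw [(h a).2, ← hχ (g * u a) x, ← mul_inv_eq_iff_eq_mul.2 (h a).1]
  group

theorem av_eq_zero (hχ : IsClassFunction G χ) {g : G} {b c : A} (h : g * u b = u c * g) (h' : l b ≠ l c) : av u l χ g = 0 := by
  have := av_conj (u := u) (l := l) hχ (x := u c) (.refl _) (fun a => ⟨by simp [← u.map_add_eq_mul, add_comm], rfl⟩) g
  rw [← h, mul_assoc, ← eq_inv_of_mul_eq_one_right (by rw [← u.map_add_eq_mul, add_neg_cancel, u.map_zero_eq_one] :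
    u c * u (-c) = 1), ← u.map_add_eq_mul, av_mul, ← sub_eq_zero, ← sub_one_mul] at this
  refine (mul_eq_zero.1 this).resolve_left fun e => h' ?_
  rw [sub_eq_zero, neg_add, neg_neg, neg_add_eq_sub, l.map_sub_eq_div] at e
  exact (eq_of_div_eq_one e).symm

theorem av_sum [DecidableEq A] {W : Type*} [Fintype W] (l : W → AddChar A ℂ)
    (h : ∀ a, ∑ w, l w a = if a = 0 then (Fintype.card A : ℂ) else 0) (g : G) : ∑ w, av u (l w) χ g = χ g := by
  simp only [av, ← mul_sum]
  rw [sum_comm]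
  simp [← sum_mul, h]

end

variable {F : Type*} [Field F] {ι : Type*} [Fintype ι] [DecidableEq ι]

theorem exists_sl_pair (h : 3 ≤ Fintype.card ι) {x y : Fin 2 → ι → F} (hx : LinearIndependent F x) (hy : LinearIndependent F y) :
    ∃ g : SpecialLinearGroup ι F, ∀ i, g • x i = y i := by
  obtain ⟨g, hg, e⟩ := Deg.exists_det_ne_pair hx hy
  obtain ⟨f, h1, h2⟩ := (Submodule.ne_bot_iff _).1 (LinearMap.ker_ne_bot_of_finrank_lt (f := (of y).mulVecLin) (by simp; omega))
  obtain ⟨j, hj⟩ := Function.ne_iff.1 h2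
  refine ⟨⟨(1 + vecMulVec (Pi.single j ((g.det⁻¹ - 1) / f j)) f) * g, ?_⟩, fun i => ?_⟩
  · rw [det_mul, Deg.det_one_add_vv, dotProduct_single, mul_div_cancel₀ _ hj, add_sub_cancel, inv_mul_cancel₀ hg]
  · have : f ⬝ᵥ y i = 0 := (dotProduct_comm _ _).trans (congrFun h1 i)
    change (_ * g) *ᵥ x i = _
    rw [← mulVec_mulVec, e, add_mulVec, one_mulVec, vecMulVec_mulVec, this, MulOpposite.op_zero, zero_smul, add_zero]

/-- the non-zero vectors -/
abbrev NZ (ι F : Type*) [Zero F] := {v : ι → F // v ≠ 0}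

instance instGLCharNZprod : MulAction (SpecialLinearGroup ι F × Fˣ) (NZ ι F) where
  smul g v := ⟨g.2 • g.1 • v.1, (smul_ne_zero_iff_ne _).2 ((smul_ne_zero_iff_ne _).2 v.2)⟩
  one_smul v := Subtype.ext ((one_smul _ _).trans (one_smul _ _))
  mul_smul g h v := Subtype.ext (show (g.2 * h.2) • (g.1 * h.1) • v.1 = g.2 • g.1 • h.2 • h.1 • v.1 by
    rw [mul_smul, mul_smul, Units.smul_def h.2, Units.smul_def h.2, smul_comm g.1 h.2.1])

instance instGLCharNZ : MulAction (SpecialLinearGroup ι F) (NZ ι F) := .compHom _ (MonoidHom.inl _ Fˣ)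

theorem smul_nz (g : SpecialLinearGroup ι F) (v : NZ ι F) : (g • v).1 = g • v.1 := one_smul _ _

theorem trans_nz [Nontrivial ι] : MulAction.IsPretransitive (SpecialLinearGroup ι F) (NZ ι F) := ⟨fun v w =>
  let ⟨g, h, e⟩ := Deg.exists_det_one_mulVec v.2 w.2; ⟨⟨g, h⟩, Subtype.ext ((smul_nz _ _).trans e)⟩⟩

theorem card_orb (h : 3 ≤ Fintype.card ι) :
    Nat.card (MulAction.orbitRel.Quotient (SpecialLinearGroup ι F) (NZ ι F × NZ ι F)) = Nat.card F := by
  classical
  have := Fintype.one_lt_card_iff_nontrivial.1 (show 1 < Fintype.card ι by omega)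
  obtain ⟨i, j, hij⟩ := exists_pair_ne ι
  obtain ⟨e, r, hr⟩ : ∃ (e : NZ ι F) (r : F → NZ ι F), ∀ c d, (r c).1 = d • e.1 ↔ d = c ∧ c ≠ 0 := by
    have : (Pi.single i 1 : ι → F) ≠ 0 := by simp
    refine ⟨⟨_, this⟩, fun c => if h : c = 0 then ⟨Pi.single j 1, by simp⟩ else ⟨_, smul_ne_zero h this⟩, fun c d => ?_⟩
    by_cases h : c = 0
    · exact iff_of_false (fun e => by simpa [h, hij] using congrFun e j) (by simp [h])
    · simp [h, (smul_left_injective F this).eq_iff, eq_comm]
  refine (Nat.card_eq_of_bijective (fun c => Quotient.mk _ (e, r c)) ⟨fun c d h => ?_, fun x => ?_⟩).symm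
  · obtain ⟨g, hg⟩ := Quotient.exact h
    have : ∀ a, a = d ∧ d ≠ 0 ↔ a = c ∧ c ≠ 0 := fun a => by
      rw [← hr, ← hr, ← show g • r d = r c from congrArg Prod.snd hg, ← smul_left_cancel_iff g, smul_comm g, ← smul_nz g e,
        show g • e = e from congrArg Prod.fst hg, smul_nz]
    have h1 := this c
    have h2 := this d
    grind
  · obtain ⟨⟨v, w⟩, rfl⟩ := Quotient.exists_rep x
    by_cases hc : ∃ c : F, c • v.1 = w.1
    · obtain ⟨c, hc⟩ := hc
      obtain ⟨g, hg⟩ := trans_nz.1 v e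
      have : c ≠ 0 := fun h => w.2 (by simp [← hc, h])
      exact ⟨c, Quotient.sound ⟨g, Prod.ext hg (Subtype.ext (by
        rw [(hr c c).2 ⟨rfl, this⟩, ← hg, smul_nz, ← smul_comm g, hc]; exact smul_nz _ _))⟩⟩
    · obtain ⟨g, hg⟩ := exists_sl_pair h ((LinearIndependent.pair_iff' v.2).2 fun c e => hc ⟨c, e⟩)
        ((LinearIndependent.pair_iff' e.2).2 fun c e => ((hr 0 c).1 e.symm).2 rfl)
      exact ⟨0, Quotient.sound ⟨g, Prod.ext (Subtype.ext ((smul_nz _ _).trans (hg 0))) (Subtype.ext ((smul_nz _ _).trans (hg 1)))⟩⟩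

theorem inner_fixed {G : Type*} [Group G] [Fintype G] (X : Type*) [MulAction G X] [Finite X] :
    classInner (fun g : G => (Nat.card (MulAction.fixedBy X g) : ℂ)) (fun g => Nat.card (MulAction.fixedBy X g)) =
    Nat.card (MulAction.orbitRel.Quotient G (X × X)) := by
  rw [classInner_eq_classInner_one, ← classInner_card_fixedBy_one]
  congr 1
  funext y
  rw [Complex.conj_natCast, ← Nat.cast_mul, ← Nat.card_prod]
  congr 1
  exact Nat.card_congr ((Equiv.Set.prod _ _).symm.trans (Equiv.setCongr (by ext; simp [Prod.ext_iff])))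

/-- The Weil characters: the constituents of the permutation character on the non-zero vectors. -/
theorem weil [Fintype F] [DecidableEq F] (h : 3 ≤ Fintype.card ι) :
    ∃ (χ : AddChar (Additive Fˣ) ℂ → SpecialLinearGroup ι F → ℂ) (l : _), (∀ i, IsIrrCharacter _ (χ i)) ∧ χ.Injective ∧
      (∀ g, (Nat.card (MulAction.fixedBy (NZ ι F) g) : ℂ) = 1 + ∑ i, χ i g) ∧ ∀ i, χ i 1 =
        ((Fintype.card F ^ Fintype.card ι - 1) / (Fintype.card F - 1) - if i = l then 1 else 0 : ℕ) := by
  have := Fintype.one_lt_card_iff_nontrivial.1 (show 1 < Fintype.card ι by omega)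
  have hq := Fintype.one_lt_card (α := F)
  obtain ⟨N, hN⟩ := Nat.sub_one_dvd_pow_sub_one (Fintype.card F) (Fintype.card ι)
  have h2 : 1 < N := by
    by_contra e
    have := Nat.pow_lt_pow_right hq (show 1 < Fintype.card ι by omega)
    have := Nat.mul_le_mul_left (Fintype.card F - 1) (not_lt.1 e)
    rw [pow_one] at *
    omega
  rw [hN, Nat.mul_div_cancel_left _ (by omega)]
  let u : AddChar (Additive Fˣ) (SpecialLinearGroup ι F × Fˣ) := ⟨fun a => (1, a.toMul), rfl, by simp⟩
  let π : SpecialLinearGroup ι F → ℂ := fun g => Nat.card (MulAction.fixedBy (NZ ι F) g)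
  obtain ⟨θ, c, s, d⟩ : ∃ θ : AddChar (Additive Fˣ) ℂ → SpecialLinearGroup ι F → ℂ, (∀ i, IsCharacter _ (θ i)) ∧
      ∑ i, θ i = π ∧ ∀ i, θ i 1 = N := by
    refine ⟨fun l g => av u l (fun g => Nat.card (MulAction.fixedBy (NZ ι F) g)) (MonoidHom.inl _ _ g), fun l =>
      isChar_av (isCharacter_card_fixedBy _) _ fun t => ⟨.refl _, fun a => ⟨by simp [u], rfl⟩⟩, funext fun g =>
      (Finset.sum_apply ..).trans (av_sum _ AddChar.sum_apply_eq_ite _), fun l => ?_⟩
    beta_reduce
    rw [av, sum_eq_single 0 (fun a _ h => ?_) (by simp), inv_mul_eq_iff_eq_mul₀ (by simp)]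
    · rw [u.map_zero_eq_one, map_one, mul_one, MulAction.fixedBy_one_eq_univ]
      simpa [Fintype.card_units] using congrArg (Nat.cast : ℕ → ℂ) hN
    · have : IsEmpty (MulAction.fixedBy (NZ ι F) (MonoidHom.inl _ _ 1 * u a)) := ⟨fun ⟨v, e⟩ => h (Units.ext
        (smul_left_injective F v.2 (show a.toMul.1 • v.1 = (1 : F) • v.1 by
          simpa only [one_mul, one_smul, Units.smul_def] using (show (1 * a.toMul) • (1 * 1 : SpecialLinearGroup ι F) • v.1 = _
          from congrArg Subtype.val e))))⟩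
      rw [Nat.card_of_isEmpty, Nat.cast_zero, mul_zero]
  obtain ⟨l, -, hl⟩ := exists_ne_zero_of_sum_ne_zero (s := univ) (f := fun i => classInner (θ i) fun _ => 1) (by
    have : Nonempty (MulAction.orbitRel.Quotient (SpecialLinearGroup ι F) (NZ ι F)) :=
      (exists_ne 0).elim fun v h => ⟨⟦⟨v, h⟩⟧⟩
    rw [← classInner_sum_left, s, classInner_card_fixedBy_one]
    exact Nat.cast_ne_zero.2 Nat.card_pos.ne')
  obtain ⟨ψ, hψ, e⟩ := (c l).exists_add_of_classInner_ne_zero isIrrCharacter_one hl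
  let χ := fun i => θ i - if i = l then (fun _ => 1 : SpecialLinearGroup ι F → ℂ) else 0
  have s' : ∑ o : Option _, ((1 : ℕ) : ℂ) • o.elim (fun _ => 1) χ = π := by simp [χ, s]
  have d' : ∀ i, χ i 1 = (N - if i = l then 1 else 0 : ℕ) := fun i => by
    simp only [χ, Pi.sub_apply, d]; split_ifs <;> simp [h2.le]
  obtain ⟨h3, h4⟩ := irr_of_classInner_sum_eq (fun _ => 1) (fun o : Option _ => o.elim (fun _ => 1) χ) (by
    rintro (_ | i)
    · exact isCharacter_one
    · by_cases h : i = l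
      · simpa [χ, h, e]
      · simpa [χ, h] using c i) (by
    rintro (_ | i) h
    · simpa using congrFun h 1
    · have := Nat.cast_eq_zero.1 ((d' i).symm.trans (congrFun h 1))
      split_ifs at this <;> omega) (by
    rw [s', inner_fixed, card_orb h]
    simp [Fintype.card_units, hq.le])
  refine ⟨χ, l, fun i => h3 (some i) one_ne_zero, fun i j e => by_contra fun h => ?_, fun g => ?_, d'⟩
  · have := h4 (some i) (some j) one_ne_zero one_ne_zero (by simpa)
    rw [Option.elim_some, Option.elim_some, ← e] at this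
    exact one_ne_zero ((h3 (some i) one_ne_zero).classInner_self.symm.trans this)
  · exact (congrFun s' g).symm.trans (by simp)

end Cfsg.Agent.GLChar
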