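import Cfsg.Agent.Mult.Stb2
import Cfsg.Agent.Classical.Parab
import Cfsg.Prelude.Def_LinearParabolics

/-! Flags in `GL n F` (helper14): Bruhat decomposition (`bruhat`), double cosets of standard parabolic and Young
subgroups are counted by the matrices `Tab α β` (`inner_GL`, `inner_S`), orders of the parabolics (`card_par`). -/

set_option autoImplicit false

namespace Cfsg.Agent.GLChar

open Matrix Finset Equiv
open scoped MatrixGroups

variable {F : Type*} [Field F] {n : ℕ}

/-- permutation matrices -/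
def pm (F : Type*) [Field F] {n : ℕ} : Perm (Fin n) →* GL (Fin n) F := (permMatrixHom (R := F)).toHomUnits

theorem pm_apply (σ : Perm (Fin n)) (i j : Fin n) : (pm F σ).1 i j = if i = σ j then 1 else 0 := by
  simp [pm, permMatrixHom, PEquiv.toMatrix_apply, Perm.inv_def, Equiv.symm_apply_eq]

theorem bruhat (g : GL (Fin n) F) : ∃ σ, ∃ b c : GL (Fin n) F, b.1.BlockTriangular id ∧ c.1.BlockTriangular id ∧
    g * c = b * pm F σ := by
  classical
  have ex : ∀ j : Fin n, ∃ m : ℕ, ∃ x : Fin n → F, x j = 1 ∧ (∀ k, j < k → x k = 0) ∧ ∀ i : Fin n, m ≤ i → (g.1 *ᵥ x) i = 0 :=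
    fun j => ⟨n, Pi.single j 1, by simp, fun k hk => by simp [hk.ne'], fun i hi => absurd i.2 (by omega)⟩
  choose x h1 h2 h3 using fun j => Nat.find_spec (ex j)
  have inj : ∀ y, g.1 *ᵥ y = 0 → y = 0 := fun y h => by
    simpa [mulVec_mulVec] using congrArg (g⁻¹.1 *ᵥ ·) h
  have ex2 : ∀ j, ∃ s : Fin n, s + 1 = Nat.find (ex j) ∧ (g.1 *ᵥ x j) s ≠ 0 := fun j => by
    have l1 : Nat.find (ex j) ≤ n :=
      Nat.find_min' _ ⟨x j, h1 j, h2 j, fun i hi => absurd i.2 (by omega)⟩
    have l0 : Nat.find (ex j) ≠ 0 := fun e => by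
      simpa [h1 j] using congrFun (inj _ (funext fun i => h3 j i (by omega))) j
    refine ⟨⟨Nat.find (ex j) - 1, by omega⟩, by simp; omega, fun e => Nat.find_min (ex j) (m := Nat.find (ex j) - 1)
      (by omega) ⟨x j, h1 j, h2 j, fun i hi => ?_⟩⟩
    rcases hi.eq_or_lt with h | h
    · rwa [show i = ⟨_, _⟩ from Fin.ext h.symm]
    · exact h3 j i (by omega)
  choose s hs hs0 using ex2
  have key : ∀ j k, j < k → s j ≠ s k := fun j k hjk e =>
    Nat.find_min (ex k) (m := s k) (by have := hs k; omega)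
      ⟨x k - ((g.1 *ᵥ x k) (s k) / (g.1 *ᵥ x j) (s k)) • x j, by simp [h1, h2 j k hjk],
        fun l hl => by simp [h2 k l hl, h2 j l (hjk.trans hl)], fun i hi => by
        have := hs j; have := hs k
        rw [mulVec_sub, mulVec_smul, Pi.sub_apply, Pi.smul_apply, smul_eq_mul]
        rcases hi.eq_or_lt with h | h
        · rw [← Fin.ext h, div_mul_cancel₀ _ (e ▸ hs0 j), sub_self]
        · rw [h3 j i (by omega), h3 k i (by omega), mul_zero, sub_zero]⟩
  let σ : Perm (Fin n) := Equiv.ofBijective s (Finite.injective_iff_bijective.1 fun j k e => by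
    rcases lt_trichotomy j k with h | h | h
    exacts [absurd e (key _ _ h), h, absurd e.symm (key _ _ h)])
  have hc : (Matrix.of fun i j => x j i).BlockTriangular id := fun i j h => h2 j i h
  let c : GL (Fin n) F := GeneralLinearGroup.mkOfDetNeZero (Matrix.of fun i j => x j i)
    (by rw [det_of_isUpperTriangular hc]; simp [h1])
  refine ⟨σ, g * c * (pm F σ)⁻¹, c, fun i j h => ?_, hc, by simp⟩
  obtain ⟨j, rfl⟩ := σ.surjective j
  rw [← map_inv, Units.val_mul, mul_apply]
  simp only [pm_apply, Perm.inv_def, symm_apply_apply, mul_ite, mul_one, mul_zero, sum_ite_eq', mem_univ, if_true]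
  exact h3 j i (by have := hs j; have : s j < i := h; omega)

theorem lab_mono (μ : Fin n → ℕ) : Monotone (compLabel μ) := fun _ _ h =>
  card_le_card (monotone_filter_right _ fun _ _ hj => hj.trans h)

/-- partial sums -/
def ps (μ : Fin n → ℕ) (k : ℕ) : ℕ := ∑ j with j.val < k, μ j

theorem ps_mono (μ : Fin n → ℕ) : Monotone (ps μ) := fun _ _ h =>
  sum_le_sum_of_subset (monotone_filter_right _ fun _ _ hj => hj.trans_le h)

theorem ps_succ (μ : Fin n → ℕ) (k : Fin n) : ps μ (k + 1) = ps μ k + μ k := by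
  rw [ps, ps, add_comm _ (μ k), ← sum_insert (by simp)]
  congr 1; ext j; simp [Fin.ext_iff]; omega

variable {μ α β : Fin n → ℕ}

theorem ps_le (h : ∑ i, μ i = n) (k : ℕ) : ps μ k ≤ n := (sum_le_sum_of_subset (subset_univ _)).trans h.le

theorem lab_lt (h : ∑ i, μ i = n) (i : Fin n) (k : ℕ) : compLabel μ i < k ↔ i < ps μ k := by
  have e : compLabel μ i = #{j : Fin n | ps μ (j + 1) ≤ i} := by
    simp only [compLabel, ps, Nat.lt_succ_iff, Fin.val_fin_le]
  rw [e]
  refine ⟨fun h1 => by_contra fun h2 => ?_, fun h1 => ?_⟩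
  · have h3 : #{j : Fin n | j.val < k} < k := (card_le_card (monotone_filter_right _ fun j _ hj =>
      (ps_mono μ hj).trans (not_lt.1 h2))).trans_lt h1
    rw [Fin.card_filter_val_lt] at h3
    have : ps μ k = n := by rw [ps, filter_true_of_mem fun j _ => by omega, h]
    omega
  · have k0 : k ≠ 0 := by rintro rfl; simp [ps] at h1
    refine (card_le_card (monotone_filter_right (q := fun j => j.val < k - 1) _ fun j _ hj => ?_)).trans_lt ?_
    · by_contra h2
      have := ps_mono μ (show k ≤ j + 1 by omega)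
      omega
    · rw [Fin.card_filter_val_lt]; omega

theorem card_lab_lt (h : ∑ i, μ i = n) (k : ℕ) : #{i | compLabel μ i < k} = ps μ k := by
  simp only [lab_lt h, Fin.card_filter_val_lt, min_eq_right (ps_le h k)]

/-- the block of a position -/
def lb (h : ∑ i, μ i = n) (i : Fin n) : Fin n :=
  ⟨compLabel μ i, (lab_lt h i n).2 (by rw [ps, filter_true_of_mem fun j _ => j.2, h]; exact i.2)⟩

theorem card_lb (h : ∑ i, μ i = n) (k : Fin n) : #{i | lb h i = k} = μ k := by
  have := card_union_of_disjoint (s := {i | compLabel μ i < k}) (t := {i | lb h i = k})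
    (disjoint_filter.2 fun i _ h1 h2 => by simp [← h2, lb] at h1)
  rw [← filter_or, card_lab_lt h, filter_congr (q := fun i => compLabel μ i < k + 1)
    (fun i _ => by simp [lb, Fin.ext_iff]; omega), card_lab_lt h, ps_succ] at this
  omega

theorem exists_equiv {X Y Z : Type*} [Fintype X] [Fintype Y] [DecidableEq Z] (f : X → Z) (g : Y → Z)
    (h : ∀ z, #{x | f x = z} = #{y | g y = z}) : ∃ e : X ≃ Y, ∀ x, g (e x) = f x :=
  ⟨_, Equiv.ofFiberEquiv_map fun z => Fintype.equivOfCardEq (by simpa only [Fintype.card_subtype] using h z)⟩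

theorem card_orbits {G T : Type*} [Group G] (K L : Subgroup G) (r : T → G)
    (h1 : ∀ g, ∃ t, ∃ k ∈ K, ∃ l ∈ L, g = k * r t * l) (h2 : ∀ t t', ∀ k ∈ K, ∀ l ∈ L, r t' = k * r t * l → t' = t) :
    Nat.card (MulAction.orbitRel.Quotient G ((G ⧸ K) × (G ⧸ L))) = Nat.card T := by
  symm
  refine Nat.card_congr (Equiv.ofBijective (fun t => Quotient.mk _ ((1 : G), r t)) ⟨fun t t' e => ?_, fun q => ?_⟩)
  · obtain ⟨g, hg⟩ := Quotient.exact e
    obtain ⟨e1, e2⟩ := Prod.ext_iff.1 hg
    exact h2 _ _ g (by simpa using QuotientGroup.eq.1 e1) _ (QuotientGroup.eq.1 e2) (by simp [mul_assoc])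
  · obtain ⟨⟨⟨x⟩, ⟨y⟩⟩, rfl⟩ := Quotient.mk_surjective q
    obtain ⟨t, k, hk, l, hl, e⟩ := h1 (x⁻¹ * y)
    refine ⟨t, Quotient.sound ⟨(x * k)⁻¹, Prod.ext (QuotientGroup.eq.2 (by simpa)) (QuotientGroup.eq.2 ?_)⟩⟩
    show ((x * k)⁻¹ * y)⁻¹ * _ ∈ L
    rw [_root_.mul_inv_rev x, mul_assoc, e]; simpa [mul_assoc]

/-- `ℕ`-matrices with given row and column sums -/
def Tab (α β : Fin n → ℕ) := {N : Fin n → Fin n → ℕ // (∀ k, ∑ l, N k l = α k) ∧ ∀ l, ∑ k, N k l = β l}

variable (ha : ∑ i, α i = n) (hb : ∑ i, β i = n)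

/-- the matrix of a permutation -/
def cnt (w : Perm (Fin n)) : Tab α β :=
  ⟨fun k l => #{j | (lb ha (w j), lb hb j) = (k, l)}, fun k => by
    rw [← card_lb ha k, ← card_equiv w (s := {j | lb ha (w j) = k}) (by simp), card_eq_sum_card_fiberwise (f := lb hb)
      (t := univ) (by simp)]
    simp only [filter_filter, Prod.mk.injEq], fun l => by
    rw [← card_lb hb l, card_eq_sum_card_fiberwise (f := fun j => lb ha (w j)) (t := univ) (by simp)]
    simp only [filter_filter, Prod.mk.injEq, and_comm]⟩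

theorem cnt_surj : Function.Surjective (cnt ha hb) := fun ⟨N, h1, h2⟩ => by
  obtain ⟨e1, k1⟩ := exists_equiv (X := Σ p : Fin n × Fin n, Fin (N p.1 p.2)) (fun x => x.1.1) (lb ha) fun z => by
    rw [card_lb, ← h1, card_filter, Fintype.sum_sigma, Fintype.sum_prod_type, sum_comm]; simp [apply_ite card]
  obtain ⟨e2, k2⟩ := exists_equiv (X := Σ p : Fin n × Fin n, Fin (N p.1 p.2)) (fun x => x.1.2) (lb hb) fun z => by
    rw [card_lb, ← h2, card_filter, Fintype.sum_sigma, Fintype.sum_prod_type]; simp [apply_ite card]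
  refine ⟨e2.symm.trans e1, Subtype.ext (funext₂ fun k l => ?_)⟩
  simp only [cnt]
  rw [← card_equiv e2 (s := {x | x.1 = (k, l)}) (by simp [k1, k2, Prod.ext_iff]), card_filter, Fintype.sum_sigma]
  simp [apply_ite card]

theorem of_cnt {w w' : Perm (Fin n)} (h : cnt ha hb w = cnt ha hb w') :
    ∃ σ ∈ youngSubgroup α, ∃ τ ∈ youngSubgroup β, w = σ * w' * τ := by
  obtain ⟨τ, hτ⟩ := exists_equiv (fun j => (lb ha (w j), lb hb j)) (fun j => (lb ha (w' j), lb hb j))
    fun z => congrFun₂ (congrArg Subtype.val h) z.1 z.2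
  refine ⟨w * (w' * τ)⁻¹, fun i => ?_, τ, fun i => congrArg Fin.val (Prod.ext_iff.1 (hτ i)).2, by group⟩
  simpa [lb] using (congrArg Fin.val (Prod.ext_iff.1 (hτ ((w' * τ)⁻¹ i))).1).symm

theorem pm_mem {σ : Perm (Fin n)} (h : σ ∈ youngSubgroup μ) : pm F σ ∈ parabolicGL n F μ := fun i j hij => by
  rw [pm_apply, if_neg]; rintro rfl; exact hij.ne' (h j)

theorem rank_le {a b : Fin n → ℕ} {p g p' : Matrix (Fin n) (Fin n) F} (hp : p.BlockTriangular a)
    (hp' : p'.BlockTriangular b) (k l : ℕ) :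
    (diagonal (fun i => if k ≤ a i then (1 : F) else 0) * (p * g * p') * diagonal fun j => if b j < l then 1 else 0).rank ≤
      (diagonal (fun i => if k ≤ a i then (1 : F) else 0) * g * diagonal fun j => if b j < l then 1 else 0).rank := by
  set D := diagonal (fun i => if k ≤ a i then (1 : F) else 0)
  set E := diagonal (fun j => if b j < l then (1 : F) else 0)
  have e1 : D * p = D * p * D := by
    ext i j; simp only [D, mul_diagonal, diagonal_mul]
    split_ifs with h h' <;> first | simp; done | simp [hp (show a j < a i by omega)]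
  have e2 : p' * E = E * (p' * E) := by
    ext i j; simp only [E, mul_diagonal, diagonal_mul]
    split_ifs with h h' <;> first | simp; done | simp [hp' (show b j < b i by omega)]
  rw [show D * (p * g * p') * E = D * p * g * (p' * E) by simp only [mul_assoc], e1, e2,
    show D * p * D * g * (E * (p' * E)) = D * p * (D * g * E * (p' * E)) by simp only [mul_assoc]]
  exact (rank_mul_le_right _ _).trans (rank_mul_le_left _ _)

theorem rank_pm (a b : Fin n → ℕ) (w : Perm (Fin n)) (k l : ℕ) :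
    (diagonal (fun i => if k ≤ a i then (1 : F) else 0) * (pm F w).1 * diagonal fun j => if b j < l then 1 else 0).rank =
      #{j | k ≤ a (w j) ∧ b j < l} := by
  classical
  rw [show diagonal (fun i => if k ≤ a i then (1 : F) else 0) * (pm F w).1 * diagonal (fun j => if b j < l then 1 else 0) =
    (pm F w).1 * diagonal fun j => if k ≤ a (w j) ∧ b j < l then 1 else 0 by
      ext i j; simp only [mul_diagonal, diagonal_mul, pm_apply]
      by_cases h : i = w j <;> simp [h, ← ite_and, and_comm], rank_mul_eq_right_of_isUnit_det _ _ (isUnits_det_units _), rank_diagonal]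
  simp [Fintype.card_subtype]

theorem cnt_eq {w w' : Perm (Fin n)} {p p' : GL (Fin n) F} (hp : p ∈ parabolicGL n F α) (hp' : p' ∈ parabolicGL n F β)
    (e : pm F w' = p * pm F w * p') : cnt ha hb w' = cnt ha hb w := by
  have H : ∀ k l, #{j | k ≤ compLabel α (w' j) ∧ compLabel β j < l} = #{j | k ≤ compLabel α (w j) ∧ compLabel β j < l} :=
    fun k l => by
    rw [← rank_pm (F := F), ← rank_pm (F := F)]
    refine le_antisymm (by rw [e]; exact rank_le hp hp' k l) ?_
    rw [show pm F w = p⁻¹ * pm F w' * p'⁻¹ by simp [e, mul_assoc]]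
    exact rank_le (inv_mem hp) (inv_mem hp') k l
  have S : ∀ (w : Perm (Fin n)) (k l : Fin n), (cnt ha hb w).1 k l + #{j | k ≤ compLabel α (w j) ∧ compLabel β j < l} +
      #{j | k + 1 ≤ compLabel α (w j) ∧ compLabel β j < l + 1} = #{j | k ≤ compLabel α (w j) ∧ compLabel β j < l + 1} +
      #{j | k + 1 ≤ compLabel α (w j) ∧ compLabel β j < l} := fun w k l => by
    simp only [cnt, card_filter, ← sum_add_distrib, Prod.mk.injEq, Fin.ext_iff, lb]
    exact sum_congr rfl fun j _ => by split_ifs <;> omega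
  refine Subtype.ext (funext₂ fun k l => ?_)
  have := S w k l
  have := S w' k l
  simp only [H] at this
  omega

include ha hb in
theorem inner_S : classInner (fixedPointCharacter (youngSubgroup α)) (fixedPointCharacter (youngSubgroup β)) =
    Nat.card (Tab α β) := by
  choose r hr using cnt_surj ha hb
  rw [Mult.classInner_fixed, card_orbits _ _ r (fun g => ⟨_, of_cnt ha hb (hr _).symm⟩) fun t t' k hk l hl e => by
    rw [← hr t, ← hr t']; exact cnt_eq (F := ℚ) ha hb (pm_mem hk) (pm_mem hl) (by rw [e, map_mul, map_mul])]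

include ha hb in
theorem inner_GL [Fintype (GL (Fin n) F)] :
    classInner (fixedPointCharacter (parabolicGL n F α)) (fixedPointCharacter (parabolicGL n F β)) = Nat.card (Tab α β) := by
  choose r hr using cnt_surj ha hb
  have m : ∀ (μ : Fin n → ℕ) (b : GL (Fin n) F), b.1.BlockTriangular id → b ∈ parabolicGL n F μ := fun μ b h i j hij =>
    h ((lab_mono μ).reflect_lt hij)
  rw [Mult.classInner_fixed, card_orbits _ _ (fun t => pm F (r t)) (fun g => ?_) fun t t' k hk l hl e => by
    rw [← hr t, ← hr t']; exact cnt_eq ha hb hk hl e]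
  obtain ⟨w, b, c, h1, h2, e⟩ := bruhat g
  obtain ⟨σ, hσ, τ, hτ, e'⟩ := of_cnt ha hb (hr (cnt ha hb w)).symm
  refine ⟨cnt ha hb w, _, mul_mem (m _ _ h1) (pm_mem hσ), _, mul_mem (pm_mem hτ) (inv_mem (m _ _ h2)), ?_⟩
  rw [eq_mul_inv_of_mul_eq e]
  conv_lhs => rw [e']
  simp [mul_assoc]

theorem card_li [Fintype F] {V : Type*} [AddCommGroup V] [Module F V] [Finite V] : ∀ (k : ℕ) (W : Fin k → Submodule F V),
    Monotone W → Nat.card {s : Fin k → V // LinearIndependent F s ∧ ∀ j, s j ∈ W j} =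
      ∏ j, (Fintype.card F ^ Module.finrank F (W j) - Fintype.card F ^ j.val)
  | 0, W, _ => by simp [linearIndependent_empty_type]
  | k + 1, W, hW => by
    classical
    have := Fintype.ofFinite V
    have e : {s : Fin (k + 1) → V // LinearIndependent F s ∧ ∀ j, s j ∈ W j} ≃ Σ s : {s : Fin k → V //
        LinearIndependent F s ∧ ∀ j, s j ∈ W j.castSucc}, ↥((W (Fin.last k) : Set V) \ Submodule.span F (Set.range s.1)) :=
      { toFun s := ⟨⟨Fin.init s.1, (linearIndependent_finSucc'.1 s.2.1).1, fun j => s.2.2 _⟩, s.1 (Fin.last k), s.2.2 _,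
          (linearIndependent_finSucc'.1 s.2.1).2⟩
        invFun s := ⟨Fin.snoc s.1.1 s.2.1, linearIndependent_finSnoc.2 ⟨s.1.2.1, s.2.2.2⟩,
          Fin.lastCases (by simpa using s.2.2.1) fun j => by simpa using s.1.2.2 j⟩
        left_inv s := by simp
        right_inv := fun ⟨⟨s, h⟩, x, hx⟩ => by
          refine Sigma.subtype_ext (Subtype.ext ?_) ?_ <;> simp }
    rw [Nat.card_congr e, Nat.card_sigma, Fin.prod_univ_castSucc, sum_congr rfl fun s _ => ?_, sum_const, card_univ,
      ← Nat.card_eq_fintype_card, card_li k _ fun _ _ h => hW (Fin.castSucc_le_castSucc_iff.2 h), smul_eq_mul]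
    · rfl
    rw [Nat.card_coe_set_eq, Set.ncard_sdiff (Submodule.span_le.2 (by
      rintro _ ⟨j, rfl⟩; exact hW (Fin.le_last _) (s.2.2 j))), ← Nat.card_coe_set_eq, ← Nat.card_coe_set_eq,
      SetLike.coe_sort_coe, SetLike.coe_sort_coe, Module.natCard_eq_pow_finrank (K := F),
      Module.natCard_eq_pow_finrank (K := F) (V := Submodule.span _ _), finrank_span_eq_card s.2.1]
    simp

theorem card_par [Fintype F] (h : ∑ i, μ i = n) : Nat.card (parabolicGL n F μ) =
    ∏ j : Fin n, (Fintype.card F ^ ps μ (compLabel μ j + 1) - Fintype.card F ^ j.val) := by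
  rw [Nat.card_congr (((equiv_GL_linearindependent n).subtypeEquiv (p := (· ∈ parabolicGL n F μ)) (q := fun s => ∀ j, s.1 j ∈
    Classical.coordP F fun i => compLabel μ j < compLabel μ i) fun g => ⟨fun h j i hi => h hi, fun h i j hi => h j i hi⟩).trans
    (Equiv.subtypeSubtypeEquivSubtypeInter _ fun s : Fin n → Fin n → F => ∀ j, s j ∈ Classical.coordP F fun i => compLabel μ j < compLabel μ i)),
    card_li n (fun j => Classical.coordP F fun i => compLabel μ j < compLabel μ i) fun j k hjk v hv i hi => hv i ((lab_mono μ hjk).trans_lt hi)]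
  simp only [Classical.finrank_coordP, Fintype.card_subtype, not_lt, ← Nat.lt_succ_iff, card_lab_lt h]

/-- `q`-factorials -/
def qf (q r : ℕ) : ℕ := ∏ j ∈ range r, ∑ l ∈ range (j + 1), q ^ l

theorem qf_mul (q r : ℕ) (hq : 1 ≤ q) : qf q r * (q - 1) ^ r = ∏ j ∈ range r, (q ^ (j + 1) - 1) := by
  rw [qf, ← card_range r, ← prod_const, card_range, ← prod_mul_distrib]
  exact prod_congr rfl fun j _ => by zify [hq, Nat.one_le_pow _ _ hq]; exact geom_sum_mul _ _

theorem prod_blocks [Fintype F] (h : ∑ i, μ i = n) (f : ℕ → ℕ) :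
    ∏ j : Fin n, f (ps μ (compLabel μ j + 1) - j) = ∏ k, ∏ j ∈ range (μ k), f (j + 1) := by
  rw [← prod_fiberwise univ (lb h)]
  refine prod_congr rfl fun k _ => ?_
  have e : ∀ j : Fin n, lb h j = k ↔ ps μ k ≤ j ∧ j < ps μ k + μ k := fun j => by
    rw [← ps_succ, ← lab_lt h, ← not_lt, ← lab_lt h]; simp [lb, Fin.ext_iff]; omega
  have l := ps_le h (k + 1)
  rw [ps_succ] at l
  refine prod_bij' (fun j _ => ps μ k + μ k - j - 1) (fun j hj => ⟨ps μ k + μ k - j - 1, by simp at hj; omega⟩)
    (fun j hj => ?_) (fun j hj => ?_) (fun j hj => ?_) (fun j hj => ?_) fun j hj => ?_ <;> simp [e, Fin.ext_iff] at hj ⊢ <;>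
    try omega
  rw [show compLabel μ j = k from congrArg Fin.val ((e j).2 hj), ps_succ]
  congr 1; omega

theorem index_par [Fintype F] (h : ∑ i, μ i = n) :
    Nat.card (GL (Fin n) F ⧸ parabolicGL n F μ) * ∏ i, qf (Fintype.card F) (μ i) = qf (Fintype.card F) n := by
  set q := Fintype.card F
  have q1 : 1 < q := Fintype.one_lt_card
  have e : ∀ m j : ℕ, j ≤ m → q ^ m - q ^ j = q ^ j * (q ^ (m - j) - 1) := fun m j h => by
    rw [Nat.mul_sub_one, ← pow_add, Nat.add_sub_cancel' h]
  have := (parabolicGL n F μ).card_eq_card_quotient_mul_card_subgroup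
  rw [card_par h, card_GL_field, prod_congr rfl fun j _ => e _ _ j.2.le, prod_congr rfl fun j _ =>
    e _ _ ((lab_lt h j _).1 (Nat.lt_succ_self _)).le, prod_mul_distrib, prod_mul_distrib, mul_left_comm,
    mul_right_inj' (by positivity), prod_blocks (F := F) h fun m => q ^ m - 1,
    Fin.prod_univ_eq_prod_range (fun j => q ^ (n - j) - 1), ← prod_range_reflect,
    prod_congr rfl (g := fun j => q ^ (j + 1) - 1) fun j hj => by simp at hj; congr 2; omega] at this
  simp only [← qf_mul _ _ q1.le, prod_mul_distrib, prod_pow_eq_pow_sum, h, ← mul_assoc] at this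
  exact (Nat.eq_of_mul_eq_mul_right (pow_pos (by omega) _) this).symm

end Cfsg.Agent.GLChar
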