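import Cfsg.Agent.GLChar.Av
import Cfsg.Agent.Classical.SLClass
import Cfsg.Agent.Classical.SLGen

/-! The smallest degree of a non-trivial irreducible character of `SL` (`min_deg`). -/

set_option autoImplicit false

namespace Cfsg.Agent.GLChar

open Matrix Finset Cfsg.Agent.Char Cfsg.Agent.CharDeep GeneralLinearGroup
open scoped MatrixGroups LinearAlgebra.Projectivization

variable {F : Type*} [Field F] {κ : Type} [Fintype κ] [DecidableEq κ] {ψ : AddChar F ℂ}

/-- the character `a ↦ ψ (a ⬝ w)` -/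
def lw (ψ : AddChar F ℂ) (w : κ → F) : AddChar (κ → F) ℂ := ψ.compAddMonoidHom (.mk' (· ⬝ᵥ w) fun _ _ => add_dotProduct ..)

omit [DecidableEq κ] in
theorem lw_apply (w a : κ → F) : lw ψ w a = ψ (a ⬝ᵥ w) := rfl

theorem exists_lw (hψ : ψ ≠ 1) {w : κ → F} (h : w ≠ 0) : ∃ a, lw ψ w a ≠ 1 := by
  obtain ⟨c, hc⟩ := AddChar.ne_one_iff.1 hψ
  obtain ⟨i, hi⟩ := Function.ne_iff.1 h
  exact ⟨Pi.single i (c / w i), by rwa [lw_apply, single_dotProduct, div_mul_cancel₀ _ hi]⟩

variable [Fintype F] [DecidableEq F]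

theorem sum_lw (hψ : ψ ≠ 1) (a : κ → F) : ∑ w, lw ψ w a = if a = 0 then (Fintype.card (κ → F) : ℂ) else 0 := by
  rw [show ∑ w, lw ψ w a = ∑ w, lw ψ a w from sum_congr rfl fun w _ => congrArg ψ (dotProduct_comm ..)]
  split_ifs with h
  · simp [h, lw_apply]
  · exact AddChar.sum_eq_zero_iff_ne_zero.2 (AddChar.ne_zero_iff.2 (exists_lw hψ h))

theorem split [Nonempty κ] {G : Type*} [Group G] [Finite G] (hψ : ψ ≠ 1) {χ : G → ℂ} (hχ : IsCharacter G χ) (u : AddChar (κ → F) G)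
    (ht : ∀ w w', w ≠ 0 → w' ≠ 0 → ∃ x, ∃ σ : (κ → F) ≃ (κ → F), ∀ a, x * u a = u (σ a) * x ∧ σ a ⬝ᵥ w' = a ⬝ᵥ w) :
    ∃ a m : ℕ, av u (lw ψ 0) χ 1 = a ∧ (∀ w ≠ 0, av u (lw ψ w) χ 1 = m) ∧
      χ 1 = (a + (Fintype.card F ^ Fintype.card κ - 1) * m : ℕ) ∧ ∀ b ≠ 0, χ (u b) = a - m := by
  have n : ∀ l, ∃ n : ℕ, av u l χ 1 = n := fun l =>
    (isChar_av hχ (1 : Unit →* G) fun _ => ⟨.refl _, by simp⟩).exists_nat_apply_one
  obtain ⟨a, ha⟩ := n (lw ψ 0)
  obtain ⟨m, hm⟩ := n (lw ψ 1)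
  have h : ∀ w ≠ 0, av u (lw ψ w) χ 1 = m := fun w hw => by
    obtain ⟨x, σ, h⟩ := ht _ _ one_ne_zero hw
    simpa [hm] using av_conj hχ.isClassFunction σ (fun a => ⟨(h a).1, congrArg ψ (h a).2⟩ : ∀ a, _ ∧ lw ψ w _ = lw ψ 1 a) 1
  have e : ∀ b, χ (u b) = a - m + m * if b = 0 then (Fintype.card (κ → F) : ℂ) else 0 := fun b => by
    rw [← if_congr neg_eq_zero rfl rfl, ← sum_lw hψ, ← av_sum (u := u) (χ := χ) _ (sum_lw hψ), ← one_mul (u b), mul_sum, ← sub_eq_iff_eq_add,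
      ← sum_sub_distrib, sum_eq_single 0 (fun w _ hw => by rw [av_mul, h w hw]; ring) (by simp), av_mul, ha]
    simp [lw_apply]
  refine ⟨a, m, ha, h, ?_, fun b hb => by simp [e, hb]⟩
  rw [← u.map_zero_eq_one, e]
  simp [Nat.one_le_pow _ _ Fintype.card_pos]
  ring

/-- the unipotent radical of the stabiliser of the first basis vector -/
def uu (κ : Type) [Fintype κ] [DecidableEq κ] (F : Type*) [Field F] : AddChar (κ → F) (SpecialLinearGroup (Unit ⊕ κ) F) where
  toFun a := Deg.slMk (fromBlocks 1 (replicateRow Unit a) 0 1) (by simp [det_fromBlocks_zero₂₁])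
  map_zero_eq_one' := Subtype.ext (by simp)
  map_add_eq_mul' a b := Subtype.ext (by simp [fromBlocks_multiply, replicateRow_add, add_comm])

/-- the Levi complement -/
def lv (κ : Type) [Fintype κ] [DecidableEq κ] (F : Type*) [Field F] : GL κ F →* SpecialLinearGroup (Unit ⊕ κ) F :=
  .mk' (fun g => Deg.slMk (fromBlocks (g.1.det⁻¹ • 1) 0 0 g) (by simp [det_fromBlocks_zero₂₁, g.det_ne_zero])) fun g h =>
    Subtype.ext (by simp [fromBlocks_multiply, smul_smul])

omit [Fintype F] [DecidableEq F] in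
theorem uu_val (a : κ → F) : (uu κ F a).1 = fromBlocks 1 (replicateRow Unit a) 0 1 := rfl

omit [Fintype F] [DecidableEq F] in
theorem lv_val (g : GL κ F) : (lv κ F g).1 = fromBlocks (g.1.det⁻¹ • 1) 0 0 g.1 := rfl

/-- the action of the Levi complement on the radical -/
def sg (g : GL κ F) : (κ → F) ≃ (κ → F) where
  toFun a := g.1.det⁻¹ • a ᵥ* g⁻¹.1
  invFun a := g.1.det • a ᵥ* g.1
  left_inv a := by simp [smul_vecMul, smul_smul, g.det_ne_zero]
  right_inv a := by simp [smul_vecMul, smul_smul, g.det_ne_zero]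

omit [Fintype F] [DecidableEq F] in
theorem lv_uu (g : GL κ F) (a : κ → F) : lv κ F g * uu κ F a = uu κ F (sg g a) * lv κ F g :=
  Subtype.ext (by simp [lv_val, uu_val, sg, fromBlocks_multiply, ← replicateRow_vecMul, smul_vecMul, replicateRow_smul])

omit [Fintype F] [DecidableEq F] in
theorem sg_dot (g : GL κ F) (a w : κ → F) : sg g a ⬝ᵥ (g.1.det • g.1 *ᵥ w) = a ⬝ᵥ w := by
  simp [sg, dotProduct_mulVec, smul_vecMul, g.det_ne_zero]

/-- the stabiliser of the character `lw ψ w` -/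
def St (w : κ → F) : Subgroup (GL κ F) where
  carrier := {g | g.1.det • g.1 *ᵥ w = w}
  one_mem' := by simp
  mul_mem' {g h} hg hh := by
    rw [Set.mem_ofPred, Units.val_mul, det_mul, mul_smul, ← mulVec_mulVec, ← mulVec_smul, hh, hg]
  inv_mem' {g} hg := by
    rw [Set.mem_ofPred]
    conv_lhs => rw [← hg]
    simp [mulVec_smul, smul_smul, g.det_ne_zero]

variable {χ : SpecialLinearGroup (Unit ⊕ κ) F → ℂ} {w x y : κ → F}

theorem isChar_St (hχ : IsCharacter _ χ) (w : κ → F) : IsCharacter (St w) fun g => av (uu κ F) (lw ψ w) χ (lv κ F g) :=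
  isChar_av hχ ((lv κ F).comp (St w).subtype) fun g => ⟨sg g.1, fun a => ⟨lv_uu .., congrArg ψ ((congrArg _ g.2.symm).trans (sg_dot g.1 a w))⟩⟩

theorem mu1 (hχ : IsCharacter _ χ) (h1 : av (uu κ F) (lw ψ w) χ 1 = 1) {T R H : Matrix κ κ F} (hT : T.det ≠ 0) (hR : R.det ≠ 0)
    (hH : H.det ≠ 0) (eT : T.det • T *ᵥ w = w) (eR : R.det • R *ᵥ w = w) (eH : H.det • H *ᵥ w = w) (e : T * R * H = H * R) :
    av (uu κ F) (lw ψ w) χ (lv κ F (mkOfDetNeZero T hT)) = 1 := by
  obtain ⟨l, hl⟩ := (isChar_St (ψ := ψ) hχ w).exists_hom_of_apply_one (by simpa)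
  have : l ⟨mkOfDetNeZero T hT, eT⟩ * l ⟨mkOfDetNeZero R hR, eR⟩ * l ⟨mkOfDetNeZero H hH, eH⟩ =
      l ⟨mkOfDetNeZero H hH, eH⟩ * l ⟨mkOfDetNeZero R hR, eR⟩ := by
    simp only [← map_mul]; exact congrArg l (Subtype.ext (Units.ext e))
  rw [mul_comm (l _) (l ⟨_, eR⟩), mul_comm, ← mul_assoc, mul_eq_left] at this
  exact (congrFun hl ⟨_, eT⟩).trans (congrArg Units.val this)

omit [Fintype F] [DecidableEq F] in
theorem det_tv (h : y ⬝ᵥ x = 0) : (1 + vecMulVec x y).det = 1 := by simp [Deg.det_one_add_vv, h]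

/-- a transvection as an element of `GL` -/
noncomputable def tv (h : y ⬝ᵥ x = 0) : GL κ F := mkOfDetNeZero _ ((det_tv h).trans_ne one_ne_zero)

omit [Fintype F] [DecidableEq F] in
theorem tv_fix (h : y ⬝ᵥ x = 0) (h' : y ⬝ᵥ w = 0) : (1 + vecMulVec x y).det • (1 + vecMulVec x y) *ᵥ w = w := by
  simp [det_tv h, add_mulVec, vecMulVec_mulVec, h']

theorem mu_comm (hχ : IsCharacter _ χ) (h1 : av (uu κ F) (lw ψ w) χ 1 = 1) (h : y ⬝ᵥ x = 0) (h' : y ⬝ᵥ w = 0) {z : κ → F} {j : κ}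
    (zx : z ⬝ᵥ x = 0) (zw : z ⬝ᵥ w = 0) (zj : z j ≠ 0) (yj : y j = 0) : av (uu κ F) (lw ψ w) χ (lv κ F (tv h)) = 1 := by
  have e : y ⬝ᵥ Pi.single j (-(z j)⁻¹) = 0 := by simp [yj]
  refine mu1 hχ h1 _ ((det_tv zx).trans_ne one_ne_zero) ((det_tv e).trans_ne one_ne_zero) (tv_fix h h') (tv_fix zx zw)
    (tv_fix e h') ?_
  simp [add_mul, mul_add, vecMulVec_mul_vecMulVec, h, zj, yj]
  abel

theorem mu_tor (hχ : IsCharacter _ χ) (h1 : av (uu κ F) (lw ψ w) χ 1 = 1) (h : y ⬝ᵥ x = 0) (h' : y ⬝ᵥ w = 0) {g v : κ → F} {a b : F}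
    (gx : g ⬝ᵥ x = 1) (gv : g ⬝ᵥ v = 0) (yv : y ⬝ᵥ v = 1) (ha : a ≠ 0) (hb : b ≠ 0) (ab : a ≠ b)
    (hw : (a * b) • (w + ((a - 1) * g ⬝ᵥ w) • x) = w) : av (uu κ F) (lw ψ w) χ (lv κ F (tv h)) = 1 := by
  have e : y ⬝ᵥ (b / (a - b)) • x = 0 := by simp [h]
  have d : ((1 + vecMulVec ((a - 1) • x) g) * (1 + vecMulVec ((b - 1) • v) y)).det = a * b := by
    simp only [det_mul, Deg.det_one_add_vv, dotProduct_smul, gx, yv, smul_eq_mul, mul_one, add_sub_cancel]
  refine mu1 hχ h1 _ ((det_tv e).trans_ne one_ne_zero) (d.trans_ne (mul_ne_zero ha hb)) (tv_fix h h') (tv_fix e h') ?_ ?_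
  · rw [d, ← mulVec_mulVec]
    simpa [add_mulVec, smul_mulVec, vecMulVec_mulVec, h', smul_smul, mul_comm] using hw
  · have := sub_ne_zero.2 ab
    simp only [add_mul, mul_add, vecMulVec_mul_vecMulVec, h, gx, gv, yv, smul_vecMulVec, vecMulVec_smul, smul_mul_assoc,
      mul_smul_comm, zero_smul, smul_zero, one_mul, mul_one, one_smul, add_zero, vecMulVec_zero, zero_mul]
    match_scalars <;> field_simp <;> ring

omit [Fintype F] [DecidableEq F] in
theorem isTv {t : Matrix κ κ F} (e : t = 1 + vecMulVec x y) (hx : x ≠ 0) (hy : y ≠ 0) (h : y ⬝ᵥ x = 0) : IsTransvection t := by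
  rw [IsTransvection, e, add_sub_cancel_left]
  refine ⟨le_antisymm (rank_vecMulVec_le _ _) (Nat.one_le_iff_ne_zero.2 fun e => vecMulVec_ne_zero hx hy ?_),
    by simp [vecMulVec_mul_vecMulVec, h]⟩
  rw [Matrix.rank, Submodule.finrank_eq_zero, LinearMap.range_eq_bot] at e
  exact toLin'.injective (by rw [map_zero]; exact e)

omit [Fintype F] [DecidableEq F] in
theorem uu_eq (a : κ → F) : (uu κ F a).1 = 1 + vecMulVec (Pi.single (.inl ()) 1) (Sum.elim 0 a) := by
  ext (i | i) (j | j) <;> simp [uu_val, vecMulVec_apply, one_apply]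

theorem apply_tv (hk : 2 ≤ Fintype.card κ) (hχ : IsClassFunction _ χ) {c : ℂ} (hc : ∀ b ≠ 0, χ (uu κ F b) = c)
    {t : SpecialLinearGroup (Unit ⊕ κ) F} (h : IsTransvection t.1) : χ t = c := by
  obtain ⟨i⟩ := Fintype.card_pos_iff.1 (by omega : 0 < Fintype.card κ)
  rw [← hc (Pi.single i 1) (by simp)]
  exact hχ.apply_eq_of_isConj (Classical.isConj_SL_transvection (by simp; omega) h (isTv (uu_eq _) (by simp)
    (fun h => by simpa using congrFun h (.inr i)) (by simp)))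

/-- the pairs `(n, q)` for which `SL_{n+1}(q)` has a character of degree `q ^ n - 1` -/
def Exc (k q : ℕ) : Prop := k = 2 ∧ (q = 2 ∨ q = 4) ∨ k = 3 ∧ (q = 2 ∨ q = 3)

theorem exc_of (hψ : ψ ≠ 1) (hk : 2 ≤ Fintype.card κ) (hχ : IsCharacter _ χ) (h0 : av (uu κ F) (lw ψ 0) χ 1 = 0)
    (h1 : ∀ w ≠ 0, av (uu κ F) (lw ψ w) χ 1 = 1) (hc : ∀ b ≠ 0, χ (uu κ F b) = -1) : Exc (Fintype.card κ) (Fintype.card F) := by
  by_contra hE
  have := Fintype.one_lt_card_iff_nontrivial.1 hk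
  obtain ⟨i, j, hij⟩ := exists_pair_ne κ
  have h : (Pi.single j 1 : κ → F) ⬝ᵥ Pi.single i 1 = 0 := by simp [hij]
  have e := apply_tv hk hχ.isClassFunction hc (t := lv κ F (tv h)) (isTv (x := Pi.single (.inr i) 1) (y := Pi.single (.inr j) 1) (by
    ext (i | i) (j | j) <;> simp [lv_val, tv, vecMulVec_apply, one_apply, det_tv h, Pi.single_apply]) (by simp) (by simp) (by simp [hij]))
  have hq : ∀ n, ¬ Fintype.card F - 1 ∣ n → ∃ a : F, a ≠ 0 ∧ a ^ n ≠ 1 := fun n h => by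
    obtain ⟨a, ha⟩ := not_forall.1 (mt (FiniteField.forall_pow_eq_one_iff F n).1 h)
    exact ⟨a, a.ne_zero, fun h => ha (Units.ext (by simpa))⟩
  have q2 := Fintype.one_lt_card (α := F)
  suffices ∀ w, 0 ≤ (av (uu κ F) (lw ψ w) χ (lv κ F (tv h))).re by
    rw [← av_sum (u := uu κ F) (χ := χ) _ (sum_lw hψ)] at e
    have := sum_nonneg fun w (_ : w ∈ univ) => this w
    rw [← Complex.re_sum, e] at this
    norm_num at this
  intro w
  by_cases hw : w = 0
  · have := (isChar_St (ψ := ψ) hχ w).eq_zero_of_apply_one (by simpa [hw])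
    exact (congrArg Complex.re (congrFun this ⟨tv h, by simp [St, hw]⟩)).ge
  by_cases h' : w j = 0
  swap
  · obtain ⟨c, hc⟩ := AddChar.ne_one_iff.1 hψ
    refine (congrArg Complex.re (av_eq_zero hχ.isClassFunction (c := Pi.single i (c / w j))
      (by rw [lv_uu, Equiv.apply_symm_apply]) fun e => hc ?_)).ge
    simpa [sg, tv, det_tv h, lw_apply, vecMul_add, vecMul_vecMulVec, AddChar.map_add_eq_mul, h',
      (ψ.val_isUnit _).ne_zero] using e
  refine zero_le_one.trans (congrArg Complex.re (?_ : _ = (1 : ℂ))).ge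
  have h'' : Pi.single j 1 ⬝ᵥ w = 0 := by simpa
  by_cases hl : ∃ l, l ≠ i ∧ l ≠ j
  swap
  · push Not at hl
    have : Fintype.card κ = 2 := hk.antisymm' ((card_le_card (show univ ⊆ {i, j} from fun l _ => by have := hl l; grind)).trans card_le_two)
    obtain ⟨a, ha, h3⟩ := hq 3 fun h => hE (.inl ⟨this, by have := (Nat.dvd_prime Nat.prime_three).1 h; omega⟩)
    refine mu_tor hχ (h1 w hw) h h'' (g := Pi.single i 1) (v := Pi.single j 1) (a := a) (b := (a ^ 2)⁻¹) (by simp) (by simp [hij])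
      (by simp) ha (by simpa) (fun e => h3 (by rw [pow_succ', ← eq_mul_inv_iff_mul_eq₀ (by simpa), one_mul, ← e])) (funext fun l => ?_)
    by_cases e : l = i
    · simp [e]; field_simp; ring
    · simp [e, hl l e, h', hij.symm]
  obtain ⟨l, li, lj⟩ := hl
  by_cases hl : w l = 0
  · exact mu_comm hχ (h1 w hw) h h'' (z := Pi.single l 1) (j := l) (by simp [li]) (by simpa) (by simp) (by simp [lj])
  by_cases hm : ∃ m, m ≠ i ∧ m ≠ j ∧ m ≠ l
  · obtain ⟨m, mi, mj, ml⟩ := hm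
    exact mu_comm hχ (h1 w hw) h h'' (z := Pi.single m (w l) - Pi.single l (w m)) (j := m) (by simp [li.symm, mi.symm])
      (by simp [mul_comm]) (by simpa [ml]) (by simp [mj])
  push Not at hm
  have : Fintype.card κ = 3 := le_antisymm ((card_le_card (show univ ⊆ {i, j, l} from fun m _ => by have := hm m; grind)).trans card_le_three)
    ((card_eq_three.2 ⟨i, j, l, hij, li.symm, lj.symm, rfl⟩).ge.trans (card_le_univ _))
  obtain ⟨a, ha, h2⟩ := hq 2 fun h => hE (.inr ⟨this, by have := (Nat.dvd_prime Nat.prime_two).1 h; omega⟩)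
  exact mu_tor hχ (h1 w hw) h h'' (g := Pi.single i 1 - Pi.single l (w i / w l)) (v := Pi.single j 1) (a := a) (b := a⁻¹)
    (by simp [li.symm]) (by simp [hij.symm, lj.symm]) (by simp) ha (by simpa)
    (fun e => h2 (by rw [sq, ← eq_mul_inv_iff_mul_eq₀ ha, one_mul, ← e])) (by simp [ha, hl])

omit [Fintype F] [DecidableEq F] in
theorem uu_inj : Function.Injective (uu κ F) := fun a b h => funext fun i =>
  congrArg (fun g : SpecialLinearGroup (Unit ⊕ κ) F => g.1 (.inl ()) (.inr i)) h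

theorem dvd_deg (hχ : IsIrrCharacter _ χ) {d c : ℕ} (hd : χ 1 = d) (hc : ∑ a, χ (uu κ F a) = c) :
    d ∣ (∑ i ∈ range (Fintype.card κ + 1), Fintype.card F ^ i) * c := by
  classical
  have he : (Pi.single (.inl ()) 1 : Unit ⊕ κ → F) ≠ 0 := by simp
  let P := MulAction.stabilizer (SpecialLinearGroup (Unit ⊕ κ) F) (Projectivization.mk F _ he)
  have k : ∀ p ∈ P, ∀ g ∈ Set.range (uu κ F), p * g * p⁻¹ ∈ Set.range (uu κ F) := by
    rintro p hp _ ⟨a, rfl⟩
    obtain ⟨c, hc⟩ := (Projectivization.mk_eq_mk_iff' ..).1 hp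
    replace hc : c • Pi.single (.inl ()) 1 = p.1 *ᵥ Pi.single (.inl ()) 1 := hc
    have : c • Sum.elim (0 : Unit → F) a ᵥ* p⁻¹.1 = Sum.elim (0 : Unit → F) ((c • Sum.elim (0 : Unit → F) a ᵥ* p⁻¹.1) ∘ .inr) := by
      ext (_ | _)
      · rw [← dotProduct_single_one (_ • _), smul_dotProduct, ← dotProduct_smul, hc, dotProduct_mulVec, vecMul_vecMul,
          ← Deg.sl_mul_val]
        simp
      · rfl
    refine ⟨_, Subtype.ext (((uu_eq _).trans (congrArg (1 + vecMulVec _ ·) this.symm)).trans ?_)⟩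
    rw [Deg.sl_mul_val, Deg.sl_mul_val, uu_eq, mul_add, add_mul, mul_one, ← Deg.sl_mul_val, mul_inv_cancel, mul_vecMulVec, vecMulVec_mul, ← hc, smul_vecMulVec, vecMulVec_smul]
    rfl
  have c : IsClassFunction P fun h => if h.1 ∈ Set.range (uu κ F) then 1 else 0 := fun g h =>
    if_congr ⟨fun e => by simpa [mul_assoc] using k _ (inv_mem h.2) _ e, k _ h.2 _⟩ rfl rfl
  have := hχ.isIntegral_sum_mul_div (indFun_isClassFunction P _) fun g => by
    rw [indFun_eq_sum_quotient P c]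
    refine IsIntegral.sum _ fun q _ => ?_
    rw [extendByZero_apply]
    split_ifs <;> simp [isIntegral_one, isIntegral_zero]
  rw [sum_indFun_mul _ _ hχ.isClassFunction, MulAction.index_stabilizer_of_transitive, Projectivization.card_of_finrank F _
    (Module.finrank_fintype_fun_eq_card F), hd, ← Fintype.sum_of_injective (fun a => (⟨uu κ F a, (Projectivization.mk_eq_mk_iff' ..).2
      ⟨1, show _ = (uu κ F a).1 *ᵥ _ by ext (_ | _) <;> simp [uu_val]⟩⟩ : P)) (fun a b h => uu_inj (congrArg Subtype.val h))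
      (fun a => χ (uu κ F a)) _ (fun i h => by rw [if_neg fun ⟨a, e⟩ => h ⟨a, Subtype.ext e⟩, zero_mul]) (by simp), hc,
      ← Nat.cast_mul] at this
  simpa [add_comm] using dvd_of_isIntegral_div (Nat.cast_ne_zero.1 (hd ▸ hχ.apply_one_ne_zero)) this

theorem deg_of_fix (hk : 2 ≤ Fintype.card κ) (hχ : IsIrrCharacter _ χ) (h1 : χ ≠ fun _ => 1) {d : ℕ} (hd : χ 1 = d)
    (h : classInner (fun s : SpecialLinearGroup κ F => av (uu κ F) (lw ψ 0) χ (lv κ F s.toGL)) (fun _ => 1) ≠ 0) :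
    ∑ i ∈ range (Fintype.card κ + 1), Fintype.card F ^ i ≤ d + 1 := by
  classical
  obtain ⟨W, l, w1, -, w2, w3⟩ := weil (F := F) (ι := Unit ⊕ κ) (by simp; omega)
  have : Nontrivial (Unit ⊕ κ) := Fintype.one_lt_card_iff_nontrivial.1 (by simp; omega)
  have := trans_nz (F := F) (ι := Unit ⊕ κ)
  let e : NZ (Unit ⊕ κ) F := ⟨Pi.single (.inl ()) 1, by simp⟩
  have m : ∀ g : SpecialLinearGroup (Unit ⊕ κ) F, g ∈ MulAction.stabilizer _ e ↔ ∀ i, g.1 i (.inl ()) = e.1 i := fun g => by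
    rw [MulAction.mem_stabilizer_iff, Subtype.ext_iff, smul_nz, funext_iff]
    exact forall_congr' fun i => Eq.congr_left (show (g.1 *ᵥ _) i = _ by simp [e])
  have b : Function.Bijective fun x : SpecialLinearGroup κ F × (κ → F) => (⟨lv κ F x.1.toGL * uu κ F x.2, (m _).2 (by
      rintro (_ | _) <;> simp [e, lv_val, uu_val, fromBlocks_multiply])⟩ : MulAction.stabilizer _ e) := by
    refine ⟨fun x y h => ?_, fun ⟨g, hg⟩ => ?_⟩
    · have := congrArg (fun g => g.1.1) h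
      simp [lv_val, uu_val, fromBlocks_multiply] at this
      exact Prod.ext (Subtype.ext this.2) this.1
    · have : g.1 = fromBlocks 1 (replicateRow Unit fun i => g.1 (.inl ()) (.inr i)) 0 g.1.toBlocks₂₂ := by
        ext (_ | _) (_ | _) <;> simp [(m g).1 hg, e, toBlocks₂₂]
      obtain ⟨s, hs⟩ : ∃ s : SpecialLinearGroup κ F, s.1 = g.1.toBlocks₂₂ :=
        ⟨⟨g.1.toBlocks₂₂, by simpa [det_fromBlocks_zero₂₁] using (congrArg Matrix.det this).symm.trans g.2⟩, rfl⟩
      refine ⟨⟨s, fun i => g.1 (.inl ()) (.inr i)⟩, Subtype.ext (Subtype.ext (.trans ?_ this.symm))⟩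
      simp [lv_val, uu_val, fromBlocks_multiply, ← hs]
  have : classInner χ (∑ i, W i) ≠ 0 := fun h0 => h (by
    have : ∑ i, W i = indFun (MulAction.stabilizer _ e) (fun _ => 1) - fun _ => 1 := funext fun g => by
      rw [Pi.sub_apply, ← card_fixedBy_eq_indFun, w2, add_sub_cancel_left, Finset.sum_apply]
    rw [this, classInner_sub_right, hχ.classInner_eq_zero_of_ne isIrrCharacter_one h1, sub_zero,
      classInner_indFun_right _ _ hχ.isClassFunction, classInner_one_right, ← b.sum_comp, Fintype.sum_prod_type] at h0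
    simpa [classInner_one_right, av, lw_apply, ← mul_sum] using (mul_eq_zero.1 h0).resolve_left (inv_ne_zero natCard_cast_ne_zero))
  rw [classInner_sum_right] at this
  obtain ⟨i, -, hi⟩ := exists_ne_zero_of_sum_ne_zero this
  have := Nat.cast_inj.1 (hd.symm.trans (hχ.eq_of_classInner_ne_zero (w1 i) hi ▸ w3 i))
  rw [← Nat.geomSum_eq Fintype.one_lt_card, Fintype.card_sum, Fintype.card_unit, add_comm] at this
  split_ifs at this <;> omega

theorem step (hk : 2 ≤ Fintype.card κ) (hχ : IsIrrCharacter _ χ) (h1 : χ ≠ fun _ => 1) {d : ℕ} (hd : χ 1 = d) :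
    ∑ i ∈ range (Fintype.card κ + 1), Fintype.card F ^ i ≤ d + 1 ∨ ∃ a, d = a + (Fintype.card F ^ Fintype.card κ - 1) ∧
      d ∣ (∑ i ∈ range (Fintype.card κ + 1), Fintype.card F ^ i) * (Fintype.card F ^ Fintype.card κ * a) ∧
      (a = 0 → Exc (Fintype.card κ) (Fintype.card F)) ∧ ∃ θ : GL κ F → ℂ, IsCharacter _ θ ∧ θ 1 = a ∧
        classInner (fun s : SpecialLinearGroup κ F => θ s.toGL) (fun _ => 1) = 0 := by
  obtain ⟨ψ, hψ⟩ := Deg.exists_complex_psi F
  have := Fintype.one_lt_card_iff_nontrivial.1 hk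
  obtain ⟨a, m, ha, hm, e, hc⟩ := split hψ hχ.isCharacter (uu κ F) fun w w' h h' => by
    obtain ⟨g, hg, e⟩ := Deg.exists_det_one_mulVec h h'
    exact ⟨_, _, fun a => ⟨lv_uu (mkOfDetNeZero g (hg.trans_ne one_ne_zero)) a, by
      rw [← sg_dot (mkOfDetNeZero g (hg.trans_ne one_ne_zero)) a w]; simp [hg, e]⟩⟩
  replace e := Nat.cast_inj.1 (hd.symm.trans e)
  rcases m with _ | _ | m
  · refine absurd (hχ.charKer_eq_top_iff.1 (Classical.eq_top_of_transvection_mem _ fun i j h c => ?_)) h1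
    by_cases h0 : c = 0
    · simp [h0]
    · refine hχ.isCharacter.mem_charKer.2 ((apply_tv hk hχ.isClassFunction hc (isTv (x := Pi.single i c) (y := Pi.single j 1) ?_
        (by simpa) (by simp) (by simp [h]))).trans (by simp [hd, e]))
      ext; simp [SpecialLinearGroup.transvection_coe, vecMulVec_apply, Pi.single_apply, single_apply, ← ite_and, eq_comm, and_comm]
  · refine (em _).elim (fun h => .inr ⟨a, by simpa using e, dvd_deg hχ hd ?_, fun h0 => exc_of hψ hk hχ.isCharacter (by simpa [h0] using ha)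
      (by simpa using hm) (by simpa [h0] using hc), _, isChar_av hχ.isCharacter (lv κ F) fun g => ⟨sg g, fun a => ⟨lv_uu .., by
      simp [lw_apply]⟩⟩, by simpa, h⟩) fun h => .inl (deg_of_fix hk hχ h1 hd h)
    simpa [av, lw_apply, inv_mul_eq_iff_eq_mul₀] using ha
  · have q := Fintype.one_lt_card (α := F)
    have := Nat.geomSum_lt q (s := range (Fintype.card κ)) fun _ => mem_range.1
    rw [sum_range_succ, e, mul_add, mul_add]
    omega

theorem base {θ : GL κ F → ℂ} (hθ : IsCharacter _ θ) {a : ℕ} (ha : θ 1 = a)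
    (h : classInner (fun s : SpecialLinearGroup κ F => θ s.toGL) (fun _ => 1) = 0) : a = 0 ∨ Fintype.card F ≤ a + 1 := by
  obtain ⟨ψ, hψ⟩ := Deg.exists_complex_psi F
  refine or_iff_not_imp_right.2 fun h' => ?_
  have := Classical.eq_top_of_transvection_mem (charKer fun s : SpecialLinearGroup κ F => θ s.toGL) fun i j hij c => by
    obtain ⟨b, m, -, -, e, hc⟩ := split (κ := Unit) hψ hθ ⟨fun a => (SpecialLinearGroup.transvection hij (a ())).toGL, by simp,
      fun a b => by simp [← map_mul, SpecialLinearGroup.transvection_add]⟩ fun w w' h h' => by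
      replace h : w () ≠ 0 := fun e => h (funext fun _ => e)
      replace h' : w' () ≠ 0 := fun e => h' (funext fun _ => e)
      refine ⟨mkOfDetNeZero (diagonal (Function.update 1 i (w () / w' ()))) (by simp [prod_update_of_mem, h, h']),
        MulAction.toPerm (Units.mk0 _ (div_ne_zero h h')), fun a => ⟨Units.ext ?_, by simp [dotProduct]; field_simp⟩⟩
      change diagonal _ * (1 + single i j _) = (1 + single i j _) * diagonal _
      rw [mul_add, add_mul, mul_one, one_mul]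
      ext k l
      by_cases e : i = k ∧ j = l
      · simp [← e.1, ← e.2, hij.symm]
      · simp [single_apply, e]
    refine (hθ.comp _).mem_charKer.2 ?_
    obtain rfl : m = 0 := by
      have := Nat.cast_inj.1 (ha.symm.trans e)
      rcases m with _ | m
      · rfl
      · simp [mul_add] at this; omega
    by_cases h0 : c = 0
    · simp [h0]
    · exact (hc (fun _ => c) fun e => h0 (congrFun e ())).trans (by simp [e])
  rw [show (fun s : SpecialLinearGroup κ F => θ s.toGL) = fun _ => (a : ℂ) from funext fun s =>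
    ((hθ.comp _).mem_charKer.1 (this ▸ Subgroup.mem_top s)).trans (by simpa)] at h
  simpa [classInner_one_right] using h

theorem arith {q k a : ℕ} (hq : 2 ≤ q) (h : a + 1 = ∑ i ∈ range (k + 2), q ^ i) :
    ¬ a + (q ^ (k + 2) - 1) ∣ (∑ i ∈ range (k + 2 + 1), q ^ i) * (q ^ (k + 2) * a) := fun e => by
  obtain ⟨Q, hQ⟩ : ∃ Q, q ^ (k + 2) = Q + 1 := ⟨_, (Nat.succ_pred (by positivity)).symm⟩
  rw [sum_range_succ, ← h, hQ, Nat.add_sub_cancel] at e
  rw [sum_range_succ', pow_zero, Nat.add_right_cancel_iff] at h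
  have d : q ∣ a := h ▸ dvd_sum fun i _ => dvd_pow_self _ i.succ_ne_zero
  have c : (a + Q).Coprime q := (Nat.coprime_add_self_left.2 (Nat.coprime_one_left _) : (1 + (a + Q)).Coprime _).symm.of_dvd_right
    (by rw [add_comm, add_assoc, ← hQ]; exact dvd_add d (dvd_pow_self _ (by simp)))
  have : a + Q ∣ 2 * Q := by
    refine (hQ ▸ c.pow_right (k + 2)).dvd_of_dvd_mul_right ((Nat.dvd_add_iff_right e).2 ⟨(Q + 1) * (a + 2), by ring⟩)
  have p : 0 < a := h ▸ sum_pos (fun _ _ => by positivity) (by simp)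
  have h2 : 1 < q ^ (k + 2) := Nat.one_lt_pow (by simp) hq
  obtain ⟨_ | _ | c, hc⟩ := this
  · omega
  · exact absurd ((Nat.dvd_add_right (d.trans (dvd_of_eq (by omega)))).1 (hQ ▸ dvd_pow_self q (by simp))) (by simp; omega)
  · simp only [mul_add, add_mul] at hc; omega

/-- the small degrees not excluded by the argument -/
def Ex (n q d : ℕ) : Prop :=
  n = 3 ∧ (q = 2 ∧ (d = 3 ∨ d = 4) ∨ q = 4 ∧ (d = 15 ∨ d = 18)) ∨ n = 4 ∧ (q = 2 ∧ (d = 7 ∨ d = 10) ∨ q = 3 ∧ d = 26)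

theorem min_deg (n : ℕ) (κ : Type) [Fintype κ] [DecidableEq κ] (hk : Fintype.card κ = n + 3) {χ : SpecialLinearGroup κ F → ℂ}
    (hχ : IsIrrCharacter _ χ) (h1 : χ ≠ fun _ => 1) {d : ℕ} (hd : χ 1 = d) :
    ∑ i ∈ range (n + 3), Fintype.card F ^ i ≤ d + 1 ∨ Ex (n + 3) (Fintype.card F) d := by
  induction n using Nat.strong_induction_on generalizing κ d with | _ n ih => ?_
  have s : ∀ e : (Unit ⊕ Fin (n + 2) → F) ≃ₗ[F] κ → F, Function.Surjective (Deg.slConj e) := fun e g =>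
    ⟨Deg.slConj e.symm g, Subtype.ext (ext_iff_mulVec.2 fun v => by simp [Deg.slConj_mulVec])⟩
  have s := s (.ofFinrankEq _ _ (by simp [hk]; ring))
  obtain h | ⟨a, rfl, h2, h3, θ, h4, h5, h6⟩ := step (by simp) (hχ.comp_of_surjective _ s)
    (fun h => h1 (funext fun g => (s g).elim fun x e => e ▸ congrFun h x)) (d := d) (by simpa)
  · exact .inl (by simpa using h)
  rw [Fintype.card_fin] at *
  have hq := Fintype.one_lt_card (α := F)
  have p : 1 < Fintype.card F ^ (n + 2) := Nat.one_lt_pow (by simp) hq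
  have A := mt (arith (a := a) (k := n) hq) (not_not.2 h2)
  refine or_iff_not_imp_left.2 fun h => ?_
  rw [sum_range_succ] at h
  by_cases h0 : a = 0
  · obtain ⟨e, e' | e'⟩ | ⟨e, e' | e'⟩ := h3 h0 <;> simp [Ex, e, e', h0, show n + 3 = n + 2 + 1 from rfl]
  rcases n with _ | n
  · have b := (base h4 h5 h6).resolve_left h0
    have : ¬ IsPrimePow 10 := by decide
    have : Fintype.card F ≠ 10 := fun h => this (h ▸ FiniteField.isPrimePow_card F)
    generalize Fintype.card F = q at *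
    obtain rfl : q = a + 1 := by simp [sum_range_succ] at h A p; omega
    have : a + 3 ∣ 12 := by
      rw [show a + ((a + 1) ^ (0 + 2) - 1) = (a + 3) * a from (Nat.add_sub_assoc p.le _).symm.trans (Nat.sub_eq_of_eq_add (by ring)),
        ← mul_assoc, Nat.mul_dvd_mul_iff_right (Nat.pos_of_ne_zero h0)] at h2
      refine (Nat.dvd_add_right (dvd_mul_right _ (a ^ 3 + 2 * a ^ 2 + 4 * a))).1 ((dvd_add h2 (dvd_mul_right _ 3)).trans (dvd_of_eq ?_))
      simp [sum_range_succ]; ring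
    have := Nat.le_of_dvd (by simp) this
    have : a ≤ 9 := by omega
    interval_cases a <;> simp_all [Ex]
  have : ∀ θ, IsCharacter (SpecialLinearGroup (Fin (n + 3)) F) θ → classInner θ (fun _ => 1) = 0 → ∀ a : ℕ, θ 1 = a →
      a = 0 ∨ ∑ i ∈ range (n + 3), Fintype.card F ^ i ≤ a + 1 ∨ Ex (n + 3) (Fintype.card F) a := fun θ hθ => by
    refine isCharacter_induction (P := fun θ => classInner θ (fun _ => 1) = 0 → ∀ a : ℕ, θ 1 = a → a = 0 ∨ _ ≤ a + 1 ∨ Ex _ _ a)
      (fun _ a h => .inl (by simpa using h.symm)) (fun φ θ h1 h2 h3 h4 a h5 => .inr ?_) hθ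
    obtain ⟨b, hb⟩ := h1.isCharacter.exists_nat_apply_one
    obtain ⟨c, hc⟩ := h2.exists_nat_apply_one
    obtain ⟨b', hb'⟩ := h1.isCharacter.exists_nat_classInner isCharacter_one
    obtain ⟨c', hc'⟩ := h2.exists_nat_classInner isCharacter_one
    rw [classInner_add_left, hb', hc', ← Nat.cast_add, Nat.cast_eq_zero, Nat.add_eq_zero_iff] at h4
    obtain rfl : b + c = a := by rw [Pi.add_apply, hb, hc] at h5; exact_mod_cast h5
    have := ih n n.lt_succ_self _ (Fintype.card_fin _) h1 (fun e => by simp [e, h4.1, isIrrCharacter_one.classInner_self] at hb') hb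
    have := h3 (by simp [hc', h4.2]) c hc
    by_cases e : ∃ d, Ex (n + 3) (Fintype.card F) d
    · obtain ⟨d, ⟨e, ⟨e', -⟩ | ⟨e', -⟩⟩ | ⟨e, ⟨e', -⟩ | ⟨e', -⟩⟩⟩ := e <;> simp [Ex, e, e', sum_range_succ] at * <;> omega
    · simp [not_exists.1 e] at *; omega
  obtain h' | h' | ⟨e, h'⟩ | ⟨e, h'⟩ := this _ (h4.comp _) h6 a (by simpa)
  · omega
  · rw [show n + 3 = n + 1 + 2 from rfl] at h'; omega
  · obtain rfl : n = 0 := by omega
    obtain ⟨e, rfl | rfl⟩ | ⟨e, rfl | rfl⟩ := h' <;> simp [Ex, e, sum_range_succ] at h2 ⊢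
  · obtain rfl : n = 1 := by omega
    obtain ⟨e, rfl | rfl⟩ | ⟨e, rfl⟩ := h' <;> simp [Ex, e, sum_range_succ] at h2 ⊢

end Cfsg.Agent.GLChar
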